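import Cfsg.Agent.T44.Cl.Alt2
import Cfsg.Agent.T44.Cl.Tr
import Cfsg.Agent.T44.Cl.Sp2
import Cfsg.Agent.T44.Cl.Main
import Cfsg.Agent.T44.Idx
import Cfsg.Agent.S2119

/-!
# S3544, the alternating groups (helper34)
-/

set_option autoImplicit false

namespace Cfsg.Agent.T44.Cl

open Cfsg Cfsg.Agent.T44 Subgroup Equiv

variable {G : Type} [Group G] [Finite G] {T H Q : Subgroup G} {r : ℕ} {Ya Yb : Set G} {da db : ℕ}

/-- a minimal normal subgroup of `H` in the centre of `Q` -/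
theorem exists_min (h : Cfg T H Q r Ya Yb da db) : ∃ E : Subgroup G, R2.T3544.IsEA r E ∧ R2.T3544.MinInv H E ∧ E ≤ Q ∧
    Q ≤ centralizer (E : Set G) := by
  obtain ⟨E, h1, h2⟩ := exists_minInv_le (OZ_ne h.prime h.isO.pg h.Q_ne) (OZ_norm (r := r) h.H_norm_Q)
  exact ⟨E, ⟨fun a ha b hb => mem_centralizer_iff.1 (h2 hb).1.2 a (h2 ha).1.1, fun a ha => (h2 ha).2⟩, h1,
    fun a ha => (h2 ha).1.1, le_centralizer_iff.1 fun a ha => (h2 ha).1.2⟩

theorem AS.conj_inj (h : AS T H Q r Ya Yb da db) :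
    haveI := h.normal
    Function.Injective (MulAut.conjNormal : G →* MulAut T) := by
  have := h.normal
  rw [injective_iff_map_eq_one]
  intro g hg
  rw [← mem_bot, ← h.centT, mem_centralizer_iff]
  intro s hsS
  have h1 : ((MulAut.conjNormal g ⟨s, hsS⟩ : T) : G) = s := by rw [hg]; rfl
  have h2 : g * s * g⁻¹ = s := h1
  rw [← mul_inv_eq_iff_eq_mul.1 h2]

theorem boxAlt : BoxAlt := by
  rintro - G _ _ T H Q r Ya Yb da db h ⟨n, hn, ⟨e⟩⟩
  have := h.normal
  by_cases h6 : n = 6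
  · subst h6
    obtain ⟨l, l1, l2, -, l4⟩ := exists_ell h.toCfg
    refine not_sq_dvd l1 l2 3 2 ?_ l4
    refine (relIndex_dvd_card' _ _).trans ((card_dvd_of_le inf_le_left).trans ?_)
    have h1 := two_mul_nat_card_alternatingGroup (α := Fin 6)
    rw [Nat.card_perm, Nat.card_eq_fintype_card (α := Fin 6), Fintype.card_fin, ← Nat.card_congr e.toEquiv,
      show Nat.factorial 6 = 720 from rfl] at h1
    rw [show Nat.card T = 360 by omega]
    decide
  let c := MulEquiv.ofBijective _ (S2119.result n (by omega) h6)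
  let ψ : G →* Perm (Fin n) :=
    c.symm.toMonoidHom.comp ((MulAut.congr e).toMonoidHom.comp (MulAut.conjNormal : G →* MulAut T))
  have hψS : ∀ s : T, ψ s = (e s : Perm (Fin n)) := by
    intro s
    change c.symm (MulAut.congr e (MulAut.conjNormal (s : G))) = _
    rw [MulEquiv.symm_apply_eq]
    refine MulEquiv.ext fun x => ?_
    change e (s * e.symm x * s⁻¹) = _
    rw [map_mul, map_mul, map_inv, MulEquiv.apply_symm_apply]
    rfl
  have hψ : Function.Injective ψ := c.symm.injective.comp ((MulAut.congr e).injective.comp (AS.conj_inj h))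
  have hT : T.map ψ = alternatingGroup (Fin n) := by
    apply le_antisymm
    · rintro _ ⟨s, hs', rfl⟩
      rw [hψS ⟨s, hs'⟩]
      exact (e ⟨s, hs'⟩).2
    · exact fun x hx => ⟨e.symm ⟨x, hx⟩, (e.symm ⟨x, hx⟩).2, by rw [hψS, MulEquiv.apply_symm_apply]⟩
  have hax : Ax (H.map ψ) := fun X h1 h2 => by
    rcases h.coatom.le_iff.1 (map_le_iff_le_comap.1 h1) with h3 | h3
    · exact absurd (by rw [← hT, map_le_iff_le_comap, h3]; exact le_top) h2
    · rw [← hT, ← h3]
      rintro _ ⟨⟨x, -, rfl⟩, hx⟩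
      exact ⟨x, hx, rfl⟩
  have hs := (sit_map_iff hψ).2 (sit_of_cfg h.toCfg)
  rw [map_inf _ _ _ hψ, hT] at hs
  obtain ⟨E, h1, h2, h3, h4⟩ := exists_min h.toCfg
  have h5 := hax.cent_le hs (by rw [Fintype.card_fin]; omega) (E := E.map ψ)
    (fun e => h2.1 ((map_eq_bot_iff_of_injective _ hψ).1 e))
    (by rintro _ ⟨a, ha, rfl⟩ _ ⟨b, hb, rfl⟩; rw [← map_mul, h1.1 a ha b hb, map_mul]) ((norm_map_iff hψ).2 h2.2.1)
  have h7 : centralizer (E : Set G) ≤ E := fun a ha => (mem_map_iff_mem hψ).1 (h5 ((mem_cent_map_iff hψ).2 ha))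
  exact h.false_of_cent_comm h1 h2 h3 h4 fun a ha b hb => h1.1 a (h7 ha.2) b (h7 hb.2)

end Cfsg.Agent.T44.Cl
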